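import Cfsg.Agent.H229.RIM.Comp

/-!
# S4816, the exceptional box `6.A₆`, step (3): pairs of characters (helper724)

* `HH C o` : the elements of `G` fixing `o` and acting on `L o` as inner automorphisms;
* `Base C o c` : the two types of characters at one point;
* `pairs` : the `G`-set `A = G ⧸ HH` over `Ω`, the characters `θ x t`, kernel `Y`.
-/

set_option autoImplicit false
set_option linter.unusedSectionVars false
set_option linter.style.haveILetI false

open Cfsg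
open scoped commutatorElement Pointwise

namespace Cfsg.Agent.H724.RIM

open Cfsg.Agent.H229.RIM

universe u

section

variable {p : ℕ} {G : Type u} [Group G] [Finite G] {Z Y : Subgroup G} {l : Z →* ℂˣ} {Ω : Type u} [MulAction G Ω]
  {L : Ω → Subgroup G}

/-- `g` acts on `S` as an inner automorphism -/
def Inn (S : Subgroup G) (g : G) : Prop := ∃ e ∈ S, ∀ x ∈ S, g * x * g⁻¹ = e * x * e⁻¹

theorem Inn.one (S : Subgroup G) : Inn S 1 := ⟨1, S.one_mem, fun _ _ => rfl⟩

theorem Inn.mul {S : Subgroup G} {g h : G} (hg : Inn S g) (hh : Inn S h) : Inn S (g * h) := by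
  obtain ⟨e, he, h1⟩ := hg
  obtain ⟨f, hf, h2⟩ := hh
  refine ⟨e * f, S.mul_mem he hf, fun x hx => ?_⟩
  have h3 : h * x * h⁻¹ ∈ S := by
    rw [h2 x hx]
    exact S.mul_mem (S.mul_mem hf hx) (S.inv_mem hf)
  calc g * h * x * (g * h)⁻¹ = g * (h * x * h⁻¹) * g⁻¹ := by group
    _ = e * (h * x * h⁻¹) * e⁻¹ := h1 _ h3
    _ = e * (f * x * f⁻¹) * e⁻¹ := by rw [h2 x hx]
    _ = e * f * x * (e * f)⁻¹ := by group

theorem Inn.inv {S : Subgroup G} {g : G} (hg : Inn S g) : Inn S g⁻¹ := by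
  obtain ⟨e, he, h1⟩ := hg
  refine ⟨e⁻¹, S.inv_mem he, fun x hx => ?_⟩
  have h2 : e⁻¹ * x * e ∈ S := S.mul_mem (S.mul_mem (S.inv_mem he) hx) he
  have h3 := h1 _ h2
  calc g⁻¹ * x * g⁻¹⁻¹ = g⁻¹ * (e * (e⁻¹ * x * e) * e⁻¹) * g := by group
    _ = g⁻¹ * (g * (e⁻¹ * x * e) * g⁻¹) * g := by rw [h3]
    _ = e⁻¹ * x * e⁻¹⁻¹ := by group

theorem Inn.of_mem {S : Subgroup G} {g : G} (hg : g ∈ S) : Inn S g := ⟨g, hg, fun _ _ => rfl⟩

theorem Inn.conj {S S' : Subgroup G} {g k : G} (hg : Inn S g) (hS : ∀ x, x ∈ S' ↔ k⁻¹ * x * k ∈ S) :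
    Inn S' (k * g * k⁻¹) := by
  obtain ⟨e, he, h1⟩ := hg
  refine ⟨k * e * k⁻¹, (hS _).2 (by
    have h2 : k⁻¹ * (k * e * k⁻¹) * k = e := by group
    rwa [h2]), fun x hx => ?_⟩
  have h2 := h1 _ ((hS x).1 hx)
  calc k * g * k⁻¹ * x * (k * g * k⁻¹)⁻¹ = k * (g * (k⁻¹ * x * k) * g⁻¹) * k⁻¹ := by group
    _ = k * (e * (k⁻¹ * x * k) * e⁻¹) * k⁻¹ := by rw [h2]
    _ = k * e * k⁻¹ * x * (k * e * k⁻¹)⁻¹ := by group

variable (L) in
/-- the elements fixing `o` and acting on `L o` as inner automorphisms -/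
def HH (o : Ω) : Subgroup G where
  carrier := {g | g • o = o ∧ Inn (L o) g}
  one_mem' := ⟨one_smul G o, Inn.one _⟩
  mul_mem' := fun {a b} ha hb => ⟨by rw [mul_smul, hb.1, ha.1], ha.2.mul hb.2⟩
  inv_mem' := fun {a} ha => ⟨by rw [inv_smul_eq_iff, ha.1], ha.2.inv⟩

theorem mem_HH {o : Ω} {g : G} : g ∈ HH L o ↔ g • o = o ∧ Inn (L o) g := Iff.rfl

theorem HH_le (o : Ω) : HH L o ≤ MulAction.stabilizer G o := fun _ hg => hg.1

section comp

variable (C : Comp p Z Y l L)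

include C

theorem mem_L {o : Ω} {g x : G} : x ∈ L (g • o) ↔ g⁻¹ * x * g ∈ L o := by
  rw [C.conj, Subgroup.mem_pointwise_smul_iff_inv_smul_mem]
  have h1 : (MulAut.conj g)⁻¹ • x = g⁻¹ * x * g := by
    rw [← map_inv, MulAut.smul_def, MulAut.conj_apply, inv_inv]
  rw [h1]

theorem mem_L' {o : Ω} {g x : G} (hx : x ∈ L o) : g * x * g⁻¹ ∈ L (g • o) := by
  rw [mem_L C]
  have h1 : g⁻¹ * (g * x * g⁻¹) * g = x := by group
  rwa [h1]

theorem mem_HH_smul {o : Ω} {g k : G} : g ∈ HH L (k • o) ↔ k⁻¹ * g * k ∈ HH L o := by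
  constructor
  · rintro ⟨h1, h2⟩
    refine ⟨by rw [mul_smul, mul_smul, h1, inv_smul_smul], ?_⟩
    have h3 := h2.conj (k := k⁻¹) (S' := L o) fun x => by
      have h4 : x = k⁻¹ * (k⁻¹⁻¹ * x * k⁻¹) * k := by group
      rw [mem_L C, ← h4]
    rwa [inv_inv] at h3
  · rintro ⟨h1, h2⟩
    refine ⟨?_, ?_⟩
    · rw [mul_smul, mul_smul, inv_smul_eq_iff] at h1
      exact h1
    · have h3 := h2.conj (k := k) (S' := L (k • o)) fun x => mem_L C
      have h4 : k * (k⁻¹ * g * k) * k⁻¹ = g := by group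
      rwa [h4] at h3

theorem L_le (o : Ω) : L o ≤ Y := (le_iSup L o).trans (le_sup_left.trans C.sup.le)

theorem Z_le_HH (o : Ω) : Z ≤ HH L o := by
  intro z hz
  have hc := Subgroup.mem_center_iff.1 (C.min.cen hz)
  refine ⟨C.inj ?_, 1, one_mem _, fun x _ => by rw [← hc x]; group⟩
  ext x
  rw [mem_L C]
  have h1 : z⁻¹ * x * z = x := by rw [mul_assoc, hc x, inv_mul_cancel_left]
  rw [h1]

theorem L_le_HH (i o : Ω) : L i ≤ HH L o := by
  intro g hg
  have key : ∀ x ∈ L o, Inn (L o) g → g⁻¹ * x * g ∈ L o := by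
    rintro x hx h1
    obtain ⟨e, he, h2⟩ := h1.inv
    have h3 := h2 x hx
    rw [inv_inv] at h3
    rw [h3]
    exact (L o).mul_mem ((L o).mul_mem he hx) ((L o).inv_mem he)
  have key' : ∀ x ∈ L o, Inn (L o) g → g * x * g⁻¹ ∈ L o := by
    rintro x hx ⟨e, he, h2⟩
    rw [h2 x hx]
    exact (L o).mul_mem ((L o).mul_mem he hx) ((L o).inv_mem he)
  have hI : Inn (L o) g := by
    by_cases hio : i = o
    · subst hio
      exact Inn.of_mem hg
    · refine ⟨1, one_mem _, fun x hx => ?_⟩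
      rw [C.comm i o hio g hg x hx]
      group
  refine ⟨C.inj ?_, hI⟩
  ext x
  rw [mem_L C]
  constructor
  · intro hx
    have h1 := key' _ hx hI
    have h2 : g * (g⁻¹ * x * g) * g⁻¹ = x := by group
    rwa [h2] at h1
  · intro hx
    exact key x hx hI

theorem Y_le_HH (o : Ω) : Y ≤ HH L o := by
  rw [← C.sup]
  exact sup_le (iSup_le fun i => L_le_HH C i o) (Z_le_HH C o)

/-- **An element acting on every component as an inner automorphism lies in `Y`.** -/
theorem mem_Y_of_forall [Finite Ω] {g : G} (hg : ∀ ω, g ∈ HH L ω) : g ∈ Y := by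
  classical
  have := Fintype.ofFinite Ω
  choose e he h1 using fun ω => (hg ω).2
  have hcomm : Pairwise fun i j => ∀ x y : G, x ∈ L i → y ∈ L j → Commute x y :=
    fun i j hij x y hx hy => C.comm i j hij x hx y hy
  let Φ : (∀ i, L i) →* G := Subgroup.noncommPiCoprod hcomm
  have hΦs : ∀ i (y : L i), Φ (Pi.mulSingle i y) = y := fun i y => Subgroup.noncommPiCoprod_mulSingle i y
  let x : G := Φ fun ω => ⟨e ω, he ω⟩
  have hxL : x ∈ ⨆ ω, L ω := by
    rw [← Subgroup.noncommPiCoprod_range (hcomm := hcomm)]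
    exact ⟨_, rfl⟩
  -- `x` acts on `L ω` as `e ω`
  have hx : ∀ ω, ∀ y ∈ L ω, x * y * x⁻¹ = e ω * y * (e ω)⁻¹ := by
    intro ω y hy
    have h2 : (fun ω => (⟨e ω, he ω⟩ : L ω)) * Pi.mulSingle ω ⟨y, hy⟩ * (fun ω => (⟨e ω, he ω⟩ : L ω))⁻¹ =
        Pi.mulSingle ω (⟨e ω, he ω⟩ * ⟨y, hy⟩ * ⟨e ω, he ω⟩⁻¹) := by
      funext j
      by_cases hj : j = ω
      · subst hj
        simp
      · simp [Pi.mulSingle_eq_of_ne hj]
    have h3 := congrArg Φ h2
    rw [hΦs, map_mul, map_mul, map_inv, hΦs] at h3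
    exact h3
  have hz : x⁻¹ * g ∈ Z := by
    rw [← C.cent, Subgroup.mem_centralizer_iff]
    have h2 : (⨆ ω, L ω) ≤ Subgroup.centralizer ({x⁻¹ * g} : Set G) := by
      refine iSup_le fun ω y hy => ?_
      rw [Subgroup.mem_centralizer_singleton_iff]
      have h3 : x * y * x⁻¹ = g * y * g⁻¹ := by rw [hx ω y hy, h1 ω y hy]
      calc y * (x⁻¹ * g) = x⁻¹ * (x * y * x⁻¹) * g := by group
        _ = x⁻¹ * (g * y * g⁻¹) * g := by rw [h3]
        _ = x⁻¹ * g * y := by group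
    intro y hy
    have h3 := h2 hy
    rw [Subgroup.mem_centralizer_singleton_iff] at h3
    exact h3
  have h2 : g = x * (x⁻¹ * g) := by group
  rw [h2, ← C.sup]
  exact mul_mem (Subgroup.mem_sup_left hxL) (Subgroup.mem_sup_right hz)

theorem mem_Y_iff [Finite Ω] {g : G} : g ∈ Y ↔ ∀ ω, g ∈ HH L ω :=
  ⟨fun h ω => Y_le_HH C ω h, mem_Y_of_forall C⟩

end comp

/-- The two types of characters at the point `o`. -/
structure Base (Z : Subgroup G) (l : Z →* ℂˣ) (L : Ω → Subgroup G) (o : Ω) (c : Bool → L o → ℂ) : Prop where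
  irr : ∀ t, IsIrrCharacter (L o) (c t)
  ov : ∀ t x (hx : x ∈ L o) (hz : x ∈ Z), c t ⟨x, hx⟩ = c t 1 * l ⟨x, hz⟩
  deg : c false 1 ≠ c true 1
  fix : ∀ t (g : G), g • o = o → (∀ x y : L o, (y : G) = g * x * g⁻¹ → c t y = c t x) → Inn (L o) g
  two : (HH L o).relIndex (MulAction.stabilizer G o) = 2

/-- The `G`-set of pairs with its characters. -/
structure Pairs (Z Y : Subgroup G) (l : Z →* ℂˣ) (L : Ω → Subgroup G) (A : Type u) [MulAction G A] (π : A → Ω)
    (θ : A → Bool → G → ℂ) : Prop where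
  equiv : ∀ (g : G) (x : A), π (g • x) = g • π x
  two : ∀ ω : Ω, Nat.card {x : A // π x = ω} = 2
  tr : ∀ x y : A, ∃ g : G, g • x = y
  ker : ∀ g : G, (∀ x : A, g • x = x) ↔ g ∈ Y
  stab : ∀ (g : G) (x : A), g • x = x ↔ g ∈ HH L (π x)
  irr : ∀ x t, IsIrrCharacter (L (π x)) (fun y : L (π x) => θ x t y)
  ov : ∀ x t, ∀ z (hz : z ∈ Z), z ∈ L (π x) → θ x t z = θ x t 1 * l ⟨z, hz⟩
  conj : ∀ (g : G) x t y, θ (g • x) t (g * y * g⁻¹) = θ x t y
  inj : ∀ x x' t t', π x = π x' → (∀ y ∈ L (π x), θ x t y = θ x' t' y) → x = x' ∧ t = t'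

section constr

variable (C : Comp p Z Y l L)

variable (L) in
/-- the character extended by zero -/
noncomputable def EE (o : Ω) (c : Bool → L o → ℂ) (t : Bool) (y : G) : ℂ := by
  classical
  exact if h : y ∈ L o then c t ⟨y, h⟩ else 0

theorem EE_of_mem {o : Ω} {c : Bool → L o → ℂ} {t : Bool} {y : G} (h : y ∈ L o) : EE L o c t y = c t ⟨y, h⟩ := by
  classical
  exact dif_pos h

theorem EE_of_not {o : Ω} {c : Bool → L o → ℂ} {t : Bool} {y : G} (h : y ∉ L o) : EE L o c t y = 0 := by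
  classical
  exact dif_neg h

include C

theorem EE_conj {o : Ω} {c : Bool → L o → ℂ} (B : Base Z l L o c) {t : Bool} {h : G} (hh : h ∈ HH L o) (y : G) :
    EE L o c t (h⁻¹ * y * h) = EE L o c t y := by
  have h1 : y ∈ L o ↔ h⁻¹ * y * h ∈ L o := by
    rw [← mem_L C, hh.1]
  by_cases hy : y ∈ L o
  · rw [EE_of_mem (h1.1 hy), EE_of_mem hy]
    obtain ⟨e, he, h2⟩ := hh.2.inv
    have h3 := h2 y hy
    rw [inv_inv] at h3
    have hcl := Cfsg.Agent.Characters.Core.isCharacter_isClassFunction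
      (Cfsg.Agent.Characters.Core.isIrr_isCharacter (B.irr t)) ⟨y, hy⟩ ⟨e, he⟩
    rw [← hcl]
    exact congrArg (c t) (Subtype.ext h3)
  · rw [EE_of_not hy, EE_of_not (fun h2 => hy (h1.2 h2))]

omit C in
variable (L) in
/-- the projection of the pairs -/
noncomputable def pi' (o : Ω) (x : G ⧸ HH L o) : Ω := x.out • o

omit C in
variable (L) in
/-- the characters of the pairs -/
noncomputable def th (o : Ω) (c : Bool → L o → ℂ) (x : G ⧸ HH L o) (t : Bool) (y : G) : ℂ :=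
  EE L o c t (x.out⁻¹ * y * x.out)

omit C in
theorem out_smul (o : Ω) (g : G) (x : G ⧸ HH L o) : ∃ h ∈ HH L o, (g • x).out = g * x.out * h := by
  have h1 : ((g • x).out : G ⧸ HH L o) = ((g * x.out : G) : G ⧸ HH L o) := by
    rw [QuotientGroup.out_eq']
    conv_lhs => rw [← QuotientGroup.out_eq' x]
    rfl
  have h2 := QuotientGroup.eq.1 h1.symm
  exact ⟨_, h2, by group⟩

/-- **Step (3).** -/
theorem pairs [Finite Ω] {o : Ω} {c : Bool → L o → ℂ} (B : Base Z l L o c) :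
    Pairs Z Y l L (G ⧸ HH L o) (pi' L o) (th L o c) := by
  classical
  have hequiv : ∀ (g : G) (x : G ⧸ HH L o), pi' L o (g • x) = g • pi' L o x := by
    intro g x
    obtain ⟨h, hh, h1⟩ := out_smul o g x
    rw [pi', pi', h1, mul_smul, mul_smul, hh.1]
  have hstab : ∀ (g : G) (x : G ⧸ HH L o), g • x = x ↔ g ∈ HH L (pi' L o x) := by
    intro g x
    rw [pi', mem_HH_smul C]
    have h1 : g • x = ((g * x.out : G) : G ⧸ HH L o) := by
      conv_lhs => rw [← QuotientGroup.out_eq' x]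
      rfl
    rw [h1]
    constructor
    · intro h2
      have h3 : ((x.out : G) : G ⧸ HH L o) = ((g * x.out : G) : G ⧸ HH L o) := by rw [h2, QuotientGroup.out_eq']
      have h4 := QuotientGroup.eq.1 h3
      rwa [← mul_assoc] at h4
    · intro h2
      conv_rhs => rw [← QuotientGroup.out_eq' x]
      refine (QuotientGroup.eq.2 ?_).symm
      rwa [← mul_assoc]
  have htr : ∀ x y : G ⧸ HH L o, ∃ g : G, g • x = y := fun x y => MulAction.exists_smul_eq G x y
  have hbase : pi' L o ((1 : G) : G ⧸ HH L o) = o := by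
    have h1 : (((1 : G) : G ⧸ HH L o).out : G ⧸ HH L o) = ((1 : G) : G ⧸ HH L o) := QuotientGroup.out_eq' _
    have h2 := QuotientGroup.eq.1 h1.symm
    rw [inv_one, one_mul] at h2
    exact h2.1
  have hsurj : ∀ ω, ∃ x, pi' L o x = ω := by
    intro ω
    obtain ⟨g, rfl⟩ := C.tr o ω
    exact ⟨g • ((1 : G) : G ⧸ HH L o), by rw [hequiv, hbase]⟩
  have hconj : ∀ (g : G) (x : G ⧸ HH L o) t y, th L o c (g • x) t (g * y * g⁻¹) = th L o c x t y := by
    intro g x t y
    obtain ⟨h, hh, h1⟩ := out_smul o g x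
    rw [th, th, h1]
    have h2 : (g * x.out * h)⁻¹ * (g * y * g⁻¹) * (g * x.out * h) = h⁻¹ * (x.out⁻¹ * y * x.out) * h := by group
    rw [h2, EE_conj C B hh]
  have hone : ∀ x t, th L o c x t 1 = c t 1 := by
    intro x t
    rw [th]
    have h1 : x.out⁻¹ * 1 * x.out = 1 := by group
    rw [h1, EE_of_mem (one_mem _)]
    rfl
  refine ⟨hequiv, ?_, htr, ?_, hstab, ?_, ?_, hconj, ?_⟩
  · intro ω
    obtain ⟨k, rfl⟩ := C.tr o ω
    -- the fibre is an orbit of the stabilizer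
    have h1 : Nat.card {x : G ⧸ HH L o // pi' L o x = k • o} = Nat.card {x : G ⧸ HH L o // pi' L o x = o} := by
      refine Nat.card_congr ⟨fun x => ⟨k⁻¹ • x.1, by rw [hequiv, x.2, inv_smul_smul]⟩,
        fun x => ⟨k • x.1, by rw [hequiv, x.2]⟩, fun x => Subtype.ext (smul_inv_smul k _),
        fun x => Subtype.ext (inv_smul_smul k _)⟩
    rw [h1, ← B.two, Subgroup.relIndex]
    have h2 : (HH L o).subgroupOf (MulAction.stabilizer G o) =
        MulAction.stabilizer (MulAction.stabilizer G o) ((1 : G) : G ⧸ HH L o) := by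
      ext s
      rw [Subgroup.mem_subgroupOf, MulAction.mem_stabilizer_iff]
      have h3 := hstab s ((1 : G) : G ⧸ HH L o)
      rw [hbase] at h3
      exact h3.symm
    rw [h2, MulAction.index_stabilizer, ← Nat.card_coe_set_eq]
    refine Nat.card_congr (Equiv.subtypeEquivRight fun x => ?_)
    constructor
    · intro hx
      obtain ⟨g, hg⟩ := htr ((1 : G) : G ⧸ HH L o) x
      have h4 : g • o = o := by
        have h5 := hequiv g ((1 : G) : G ⧸ HH L o)
        rw [hg, hx, hbase] at h5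
        exact h5.symm
      exact ⟨⟨g, h4⟩, hg⟩
    · rintro ⟨s, rfl⟩
      change pi' L o ((s : G) • ((1 : G) : G ⧸ HH L o)) = o
      rw [hequiv, hbase]
      exact s.2
  · intro g
    rw [mem_Y_iff C]
    constructor
    · intro h ω
      obtain ⟨x, rfl⟩ := hsurj ω
      exact (hstab g x).1 (h x)
    · intro h x
      exact (hstab g x).2 (h _)
  · intro x t
    let k : G := x.out
    let e : L (pi' L o x) →* L o :=
      { toFun := fun y => ⟨k⁻¹ * y * k, (mem_L C).1 y.2⟩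
        map_one' := Subtype.ext (by change k⁻¹ * 1 * k = 1; group)
        map_mul' := fun a b => Subtype.ext (by change k⁻¹ * (a * b) * k = k⁻¹ * a * k * (k⁻¹ * b * k); group) }
    have he : Function.Surjective e := by
      rintro ⟨y, hy⟩
      exact ⟨⟨k * y * k⁻¹, mem_L' C hy⟩, Subtype.ext (by change k⁻¹ * (k * y * k⁻¹) * k = y; group)⟩
    have h1 := Cfsg.Agent.Characters.Core.isIrr_comp e he (B.irr t)
    have h2 : (fun y : L (pi' L o x) => th L o c x t y) = (c t) ∘ e := by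
      funext y
      exact EE_of_mem ((mem_L C).1 y.2)
    rw [h2]
    exact h1
  · intro x t z hz hzL
    have hc := Subgroup.mem_center_iff.1 (C.min.cen hz)
    have h1 : x.out⁻¹ * z * x.out = z := by rw [mul_assoc, ← hc, inv_mul_cancel_left]
    have h2 : z ∈ L o := by
      have h3 := (mem_L C).1 hzL
      rwa [h1] at h3
    rw [hone, th, h1, EE_of_mem h2]
    exact B.ov t z h2 hz
  · intro x x' t t' hπ h
    have ht : t = t' := by
      have h1 := h 1 (one_mem _)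
      rw [hone, hone] at h1
      cases t <;> cases t'
      · rfl
      · exact absurd h1 B.deg
      · exact absurd h1.symm B.deg
      · rfl
    subst ht
    refine ⟨?_, rfl⟩
    set k := x.out with hk
    set k' := x'.out with hk'
    have hs : (k⁻¹ * k') • o = o := by
      rw [mul_smul, inv_smul_eq_iff]
      exact hπ.symm
    have h1 : ∀ a b : L o, (b : G) = (k⁻¹ * k') * a * (k⁻¹ * k')⁻¹ → c t b = c t a := by
      intro a b hab
      have h2 : k * (b : G) * k⁻¹ ∈ L (pi' L o x) := mem_L' C b.2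
      have h3 := h _ h2
      rw [th, th, ← hk, ← hk'] at h3
      have e1 : k⁻¹ * (k * (b : G) * k⁻¹) * k = b := by group
      have e2 : k'⁻¹ * (k * (b : G) * k⁻¹) * k' = a := by rw [hab]; group
      rw [e1, e2, EE_of_mem b.2, EE_of_mem a.2] at h3
      exact h3
    have h2 : k⁻¹ * k' ∈ HH L o := ⟨hs, B.fix t _ hs h1⟩
    have h3 : ((k : G) : G ⧸ HH L o) = ((k' : G) : G ⧸ HH L o) := QuotientGroup.eq.2 h2
    rw [hk, hk', QuotientGroup.out_eq', QuotientGroup.out_eq'] at h3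
    exact h3

end constr

/-! ### Families -/

section fam

variable (C : Comp p Z Y l L) {A : Type u} [MulAction G A] {π : A → Ω} {θ : A → Bool → G → ℂ}
  (P : Pairs Z Y l L A π θ)

include P

theorem fam_irr {F : Ω → A} (hF : ∀ ω, π (F ω) = ω) (τ : Ω → Bool) (ω : Ω) :
    IsIrrCharacter (L ω) (fun y : L ω => θ (F ω) (τ ω) y) := by
  have h1 := P.irr (F ω) (τ ω)
  rw [hF ω] at h1
  exact h1

theorem fam_ov {F : Ω → A} (hF : ∀ ω, π (F ω) = ω) (τ : Ω → Bool) (ω : Ω) (x : G) (hx : x ∈ L ω) (hz : x ∈ Z) :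
    θ (F ω) (τ ω) x = θ (F ω) (τ ω) 1 * l ⟨x, hz⟩ :=
  P.ov _ _ x hz (by rw [hF ω]; exact hx)

include C

/-- **The stabilizer of a family.** -/
theorem fam_stab {F : Ω → A} (hF : ∀ ω, π (F ω) = ω) (τ : Ω → Bool) (g : G) :
    (∀ ω (x : L ω) (y : L (g • ω)), (y : G) = g * x * g⁻¹ → θ (F (g • ω)) (τ (g • ω)) y = θ (F ω) (τ ω) x) ↔
      ∀ ω, F (g • ω) = g • F ω ∧ τ (g • ω) = τ ω := by
  constructor
  · intro h ω
    refine P.inj _ _ _ _ (by rw [hF, P.equiv, hF]) fun y hy => ?_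
    rw [hF] at hy
    have h1 := h ω ⟨g⁻¹ * y * g, (mem_L C).1 hy⟩ ⟨y, hy⟩ (by change y = g * (g⁻¹ * y * g) * g⁻¹; group)
    have h2 := P.conj g (F ω) (τ ω) (g⁻¹ * y * g)
    have h3 : g * (g⁻¹ * y * g) * g⁻¹ = y := by group
    rw [h3] at h2
    rw [h2]
    exact h1
  · intro h ω x y hy
    rw [(h ω).1, (h ω).2, hy, P.conj]

end fam

end

end Cfsg.Agent.H724.RIM
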